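import Cfsg.Agent.StdON.Cov

/-! Standard subgroups `4.L₃(4)`: automorphisms of the covering group (helper84). -/

set_option autoImplicit false
set_option maxRecDepth 100000

namespace Cfsg.Lib.Spor.SON

open Subgroup Bulk PK WF ONT

variable {G : Type*} [Group G] {θ : UU →* G} {x n : G} {j : ℕ}

/-- the basic relation describing the action of `x` -/
def E (θ : UU →* G) (x : G) (u v r : UU) : Prop := θ u * x * θ v = θ r * x

/-- `x` acts as the automorphism number `j` -/
structure Act (θ : UU →* G) (x : G) (j : ℕ) : Prop where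
  hj : j = 0 ∨ j = 4 ∨ j = 7 ∨ j = 9
  nm : x ∈ normalizer (θ.range : Set G)
  a1 : x * gU θ 1 * x⁻¹ = gU θ 1
  a7 : x * gU θ 7 * x⁻¹ = gU θ (16 + j)

theorem mem_cent (a : n * gU θ 1 * n⁻¹ = gU θ 1) (b : n * gU θ 7 * n⁻¹ = gU θ 7) :
    n ∈ centralizer (θ.range : Set G) := by
  rintro _ ⟨u, rfl⟩
  exact mem_centralizer_singleton_iff.1 (le_of_gens (H := (centralizer {n}).comap θ)
    (mem_centralizer_singleton_iff.2 (mul_inv_eq_iff_eq_mul.1 a).symm)
    (mem_centralizer_singleton_iff.2 (mul_inv_eq_iff_eq_mul.1 b).symm) u)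

theorem g16 (θ : UU →* G) : gU θ 16 = gU θ 7 :=
  congrArg θ ((word_of (rel_uu MU_w) (by omega)).trans (one_mul _))

namespace Act

theorem zero (h : Act θ x 0) : x ∈ centralizer (θ.range : Set G) :=
  mem_cent h.a1 (h.a7.trans (g16 θ))

theorem sq (h : Act θ x j) : x * x ∈ centralizer (θ.range : Set G) := by
  obtain rfl | hj := h.hj
  · exact mul_mem h.zero h.zero
  refine mem_cent ?_ ?_
  · calc _ = x * (x * gU θ 1 * x⁻¹) * x⁻¹ := by group
      _ = _ := by rw [h.a1, h.a1]
  · calc _ = x * (x * gU θ 7 * x⁻¹) * x⁻¹ := by group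
      _ = _ := by
        rw [h.a7, act h.a1 h.a7 (B := [7]) (by rcases hj with rfl | rfl | rfl <;> decide)]; simp

theorem uniq {x' : G} (h : Act θ x j) (h' : Act θ x' j) :
    x⁻¹ * x' ∈ centralizer (θ.range : Set G) := by
  refine mem_cent ?_ ?_
  · calc _ = x⁻¹ * (x' * gU θ 1 * x'⁻¹) * x := by group
      _ = _ := by rw [h'.a1]; nth_rewrite 1 [← h.a1]; group
  · calc _ = x⁻¹ * (x' * gU θ 7 * x'⁻¹) * x := by group
      _ = _ := by rw [h'.a7, ← h.a7]; group

/-- the action on the centre -/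
theorem y_act (h : Act θ x j) (hc : Cov θ) :
    (x * gU θ 12 = gU θ 12 * x ∧ (gU θ 13 = 1 → j = 0 ∨ j = 4)) ∨
      (gU θ 12 * x * gU θ 12 = x ∧ (gU θ 13 = 1 → j = 7 ∨ j = 9)) := by
  have z4 := z_four θ
  have inv : x * gU θ 12 * x⁻¹ = gU θ 12 * gU θ 12 * gU θ 12 → gU θ 12 * x * gU θ 12 = x :=
    fun e => by
      calc _ = gU θ 12 * (x * gU θ 12 * x⁻¹) * x := by group
        _ = gU θ 12 * gU θ 12 * (gU θ 12 * gU θ 12) * x := by rw [e]; group
        _ = x := by rw [z4, one_mul]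
  have k1 : gU θ 13 = gU θ 12 * gU θ 12 → gU θ 13 = 1 → False := fun a b => hc.ne (a ▸ b)
  obtain rfl | rfl | rfl | rfl := h.hj
  · exact Or.inl ⟨(h.zero _ (gU_mem θ 12)).symm, fun _ => Or.inl rfl⟩
  · have e := act h.a1 h.a7 (l := 12) (B := [12, 13, 13, 13]) (by decide)
    rcases hc.k with k | k
    · exact Or.inl ⟨mul_inv_eq_iff_eq_mul.1 (by simpa [k] using e), fun _ => Or.inr rfl⟩
    · exact Or.inr ⟨inv (by simpa [k, z4] using e), fun a => (k1 k a).elim⟩
  · have e := act h.a1 h.a7 (l := 12) (B := [12, 12, 12, 13]) (by decide)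
    rcases hc.k with k | k
    · exact Or.inr ⟨inv (by simpa [k] using e), fun _ => Or.inl rfl⟩
    · refine Or.inl ⟨mul_inv_eq_iff_eq_mul.1 ?_, fun a => (k1 k a).elim⟩
      rw [e, ← one_mul (gU θ 12), ← z4]
      simp only [wv_cons, wv_nil, one_mul, k, mul_assoc]
  · have e := act h.a1 h.a7 (l := 12) (B := [12, 12, 12]) (by decide)
    exact Or.inr ⟨inv (by simpa using e), fun _ => Or.inr rfl⟩

end Act

section Virt

open SemidirectProduct

/-- the automorphism induced by `x` -/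
noncomputable def al (hx : x ∈ normalizer (θ.range : Set G)) : MulAut θ.range :=
  θ.range.normalizerMonoidHom ⟨x, hx⟩

/-- the split extension by the automorphism induced by `x` -/
abbrev XX (hx : x ∈ normalizer (θ.range : Set G)) :=
  θ.range ⋊[(zpowers (al hx)).subtype] zpowers (al hx)

/-- the covering map into the split extension -/
noncomputable def th (hx : x ∈ normalizer (θ.range : Set G)) : UU →* XX hx :=
  inl.comp θ.rangeRestrict

/-- the outer element of the split extension -/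
noncomputable def xh (hx : x ∈ normalizer (θ.range : Set G)) : XX hx := inr ⟨_, mem_zpowers _⟩

theorem E_eq (hx : x ∈ normalizer (θ.range : Set G)) : E (th hx) (xh hx) = E θ x := by
  funext u v r
  have : xh hx * th hx v = inl (al hx (θ.rangeRestrict v)) * xh hx :=
    mul_inv_eq_iff_eq_mul.1 (by
      rw [xh, ← map_inv]; exact (inl_aut (φ := (zpowers (al hx)).subtype) _ _).symm)
  rw [E, E, mul_assoc, this, ← mul_assoc, mul_left_inj, th, MonoidHom.comp_apply,
    MonoidHom.comp_apply, ← map_mul, inl_inj, Subtype.ext_iff, ← mul_inv_eq_iff_eq_mul]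
  change (θ u * (x * θ v * x⁻¹) = θ r) = _
  simp only [mul_assoc]

theorem th_eq (hx : x ∈ normalizer (θ.range : Set G)) {u w : UU} :
    th hx u = th hx w ↔ θ u = θ w := by
  rw [th, MonoidHom.comp_apply, MonoidHom.comp_apply, inl_inj, Subtype.ext_iff]; rfl

theorem Act.data [Finite G] (h : Act θ x j) (hc : Cov θ) (hx : x ∉ centralizer (θ.range : Set G)) :
    ∃ i ∈ [0, 2, 4, 6, 8, 10], (gU θ 13 = 1 → (j = 7 → i = 2) ∧ (j = 9 → i = 4)) ∧
      Data (th h.nm) (xh h.nm) i ∧ xh h.nm * xh h.nm = 1 ∧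
      centralizer {gU (th h.nm) 12 * gU (th h.nm) 12} = ⊤ := by
  obtain ⟨i, hi, i1, i2, i3, i4⟩ : ∃ i ∈ [0, 2, 4, 6, 8, 10], cJ i = j ∧ cX i = [] ∧
      θ (uu 13) = θ (wv uu (cK i)) ∧ (gU θ 13 = 1 → (j = 7 → i = 2) ∧ (j = 9 → i = 4)) := by
    have k1 : gU θ 13 = gU θ 12 * gU θ 12 → gU θ 13 = 1 → False := fun a b => hc.ne (a ▸ b)
    have k2 : gU θ 13 = gU θ 12 * gU θ 12 → θ (uu 13) = θ (wv uu [12, 12]) := fun a => by
      simpa [gU] using a
    obtain rfl | rfl | rfl | rfl := h.hj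
    · exact absurd h.zero hx
    all_goals rcases hc.k with k | k
    exacts [⟨0, by simp, rfl, rfl, k.trans (map_one θ).symm, by simp⟩,
      ⟨6, by simp, rfl, rfl, k2 k, by simp⟩, ⟨2, by simp, rfl, rfl, k.trans (map_one θ).symm, by simp⟩,
      ⟨8, by simp, rfl, rfl, k2 k, fun a => (k1 k a).elim⟩,
      ⟨4, by simp, rfl, rfl, k.trans (map_one θ).symm, by simp⟩,
      ⟨10, by simp, rfl, rfl, k2 k, fun a => (k1 k a).elim⟩]
  have a2 : al h.nm * al h.nm = 1 := MulEquiv.ext fun l => Subtype.ext (by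
    change x * (x * l * x⁻¹) * x⁻¹ = l
    calc _ = x * x * l * (x * x)⁻¹ := by group
      _ = _ := by rw [← h.sq l l.2, mul_inv_cancel_right])
  have a1 : al h.nm ≠ 1 := fun e => hx fun l hl => by
    have := congrArg Subtype.val (DFunLike.congr_fun e (⟨l, hl⟩ : θ.range))
    exact (mul_inv_eq_iff_eq_mul.1 (show x * l * x⁻¹ = l from this)).symm
  have x2 : xh h.nm * xh h.nm = 1 := by rw [xh, ← map_mul]; exact (congrArg inr (Subtype.ext a2)).trans (map_one _)
  have hE : ∀ v r, x * θ v * x⁻¹ = θ r → xh h.nm * th h.nm v * (xh h.nm)⁻¹ = th h.nm r :=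
    fun v r e => by
      have : E θ x 1 v r := by simpa [E] using mul_inv_eq_iff_eq_mul.1 e
      rw [← E_eq h.nm] at this
      simpa [E, mul_inv_eq_iff_eq_mul] using this
  have hr : (th h.nm).range = (rightHom (φ := (zpowers (al h.nm)).subtype)).ker := by
    rw [th, MonoidHom.range_comp, MonoidHom.range_eq_top.2 θ.rangeRestrict_surjective,
      ← MonoidHom.range_eq_map, range_inl_eq_ker_rightHom]
  have hz : Nat.card (zpowers (al h.nm)) = 2 := by
    rw [Nat.card_zpowers]; exact orderOf_eq_prime (by rwa [pow_two]) a1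
  have cen : xh h.nm * (gU (th h.nm) 12 * gU (th h.nm) 12) =
      gU (th h.nm) 12 * gU (th h.nm) 12 * xh h.nm := by
    have := hE (uu 12 * uu 12) (uu 12 * uu 12) (by
      rw [mul_inv_eq_iff_eq_mul, map_mul]
      change x * (gU θ 12 * gU θ 12) = gU θ 12 * gU θ 12 * x
      rcases h.y_act hc with ⟨e, -⟩ | ⟨e, -⟩
      · rw [← mul_assoc, e, mul_assoc, e, mul_assoc]
      · calc _ = gU θ 12 * gU θ 12 * (gU θ 12 * gU θ 12) * x * (gU θ 12 * gU θ 12) := by
              rw [z_four, one_mul]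
          _ = gU θ 12 * gU θ 12 * (gU θ 12 * (gU θ 12 * x * gU θ 12) * gU θ 12) := by group
          _ = _ := by rw [e, e])
    rwa [mul_inv_eq_iff_eq_mul, map_mul] at this
  have hT : centralizer {gU (th h.nm) 12 * gU (th h.nm) 12} = ⊤ := by
    refine (eq_top_iff' _).2 fun g => ?_
    rw [← inl_left_mul_inr_right g]
    refine mul_mem (range_le _ (hr.ge (rightHom_inl _))) ?_
    obtain ⟨_, k, rfl⟩ := g.right
    have := zpow_mem (mem_centralizer_singleton_iff.2 cen) k
    rwa [xh, ← map_zpow] at this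
  refine ⟨i, hi, i4, ⟨⟨fun u e => hc.ker u (((th_eq h.nm).1 (e.trans (map_one _).symm)).trans
    (map_one θ)), fun e => hc.ne (by
      have := (th_eq h.nm (u := uu 12 * uu 12) (w := 1)).1 (by rwa [map_mul, map_one])
      rwa [map_mul, map_one] at this), wv_gU (th h.nm) _ ▸ (th_eq h.nm).2 i3, hE _ _ h.a1,
    hE _ _ (i1.symm ▸ h.a7), i2 ▸ x2, fun e => a1 (congrArg Subtype.val (hr.le e)), cen⟩, ?_, ?_⟩, x2, hT⟩
  · rw [hT, ← relIndex, relIndex_top_right, hr, index_ker,
      MonoidHom.range_eq_top.2 rightHom_surjective, card_top, hz]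
  · have e1 : θ.rangeRestrict.ker ≤ pr.ker := fun u hu => hc.ker u (congrArg Subtype.val hu)
    let σ : θ.range →* LL := θ.rangeRestrict.liftOfSurjective θ.rangeRestrict_surjective ⟨pr, e1⟩
    have s1 : ∀ u, σ (θ.rangeRestrict u) = pr u := fun u =>
      θ.rangeRestrict.liftOfRightInverse_comp_apply _ _ ⟨pr, e1⟩ u
    have s2 : σ.ker = zpowers (θ.rangeRestrict (uu 12)) := by
      refine le_antisymm (fun l hl => ?_) (zpowers_le.2 ((s1 _).trans pr12))
      obtain ⟨u, rfl⟩ := θ.rangeRestrict_surjective l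
      obtain ⟨k, hk⟩ := hc.zp ((s1 u).symm.trans hl)
      exact ⟨k, Subtype.ext hk⟩
    have s3 : orderOf (θ.rangeRestrict (uu 12)) = 2 ^ 2 := by
      rw [← orderOf_coe]
      exact orderOf_eq_prime_pow (n := 1) (by simpa [pow_two, gU] using hc.ne)
        (by simpa [pow_succ, mul_assoc, gU] using z_four θ)
    have s4 := σ.ker.index_mul_card
    rw [index_ker, MonoidHom.range_eq_top.2 (fun l => by
      obtain ⟨u, rfl⟩ := pr_surj l
      exact ⟨_, s1 u⟩), card_top, card_LL, s2, Nat.card_zpowers, s3] at s4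
    rw [hT, card_top, SemidirectProduct.card, hz, ← s4]
    norm_num

end Virt

end Cfsg.Lib.Spor.SON
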