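import Cfsg.Agent.StdON.Mod

/-! Standard subgroups `4.L₃(4)`: the covering group and its Sylow subgroup (helper84). -/

set_option autoImplicit false
set_option maxRecDepth 100000

namespace Cfsg.Lib.Spor.SON

open Subgroup Bulk PK WF ONT

variable {G : Type*} [Group G] {θ : UU →* G} {x : G}

/-- `θ` maps onto a fourfold cover of `L₃(4)` with cyclic centre -/
structure Cov (θ : UU →* G) : Prop where
  ker : ∀ u, θ u = 1 → pr u = 1
  ne : gU θ 12 * gU θ 12 ≠ 1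
  k : gU θ 13 = 1 ∨ gU θ 13 = gU θ 12 * gU θ 12

/-- the Sylow subgroup upstairs -/
noncomputable def U0 : Subgroup UU := sub uu [[8],[9],[10],[11],[12]]

theorem map_U0 (θ : UU →* G) (x : G) : U0.map θ = sub (gS θ x) [[8],[9],[10],[11],[12]] :=
  (sub_map θ uu _).trans rfl

theorem mem_S0 {u : UU} (hu : u ∈ U0) (θ : UU →* G) (x : G) :
    θ u ∈ sub (gS θ x) [[8],[9],[10],[11],[12]] := map_U0 θ x ▸ mem_map_of_mem θ hu

theorem pr12 : pr (uu 12) = 1 := ker_pr.ge (mem_sub _ (by simp))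

/-- the element `v` of order four -/
noncomputable def vv (θ : UU →* G) : G := gU θ 11 * gU θ 9 * gU θ 8

theorem vv_mem (θ : UU →* G) : vv θ ∈ θ.range :=
  mul_mem (mul_mem (gU_mem ..) (gU_mem ..)) (gU_mem ..)

theorem sq8 (θ : UU →* G) : gU θ 8 * gU θ 8 = 1 ∧ gU θ 9 * gU θ 9 = 1 ∧ gU θ 11 * gU θ 11 = 1 ∧
    gU θ 28 * gU θ 28 = 1 := by
  have a := rel_gU θ MU_inv
  simp only [List.forall_mem_cons, wv_cons, wv_nil, one_mul] at a
  exact ⟨a.1, a.2.1, a.2.2.2.1, by simpa using rel_gU θ MU_a ([28, 28], []) (by simp)⟩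

theorem vv_inv (θ : UU →* G) : (vv θ)⁻¹ = gU θ 8 * gU θ 9 * gU θ 11 := by
  obtain ⟨a, b, c, -⟩ := sq8 θ
  rw [vv, mul_inv_rev, mul_inv_rev, inv_eq_of_mul_eq_one_right a, inv_eq_of_mul_eq_one_right b,
    inv_eq_of_mul_eq_one_right c, mul_assoc]

namespace Cov

theorem zp (h : Cov θ) {u : UU} (hu : pr u = 1) : θ u ∈ zpowers (gU θ 12) :=
  sub_le_two (H := (zpowers (gU θ 12)).comap θ) (mem_zpowers _) (by
    change gU θ 13 ∈ zpowers _
    rcases h.k with e | e <;> rw [e]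
    exacts [one_mem _, mul_mem (mem_zpowers _) (mem_zpowers _)]) (ker_pr.le hu)

theorem pr_eq (h : Cov θ) {u w : UU} (e : θ u = θ w) : pr u = pr w := by
  rw [← mul_inv_eq_one, ← map_inv, ← map_mul]
  exact h.ker _ (by rw [map_mul, map_inv, e, mul_inv_cancel])

theorem pr_one (h : Cov θ) {u : UU} (e : θ u = 1 ∨ θ u = gU θ 12 ∨ θ u = gU θ 12 * gU θ 12 ∨
    θ u = (gU θ 12)⁻¹) : pr u = 1 := by
  rcases e with e | e | e | e
  · exact h.ker u e
  · exact (h.pr_eq e).trans pr12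
  · rw [h.pr_eq (w := uu 12 * uu 12) (e.trans (map_mul θ _ _).symm), map_mul, pr12, one_mul]
  · rw [h.pr_eq (w := (uu 12)⁻¹) (e.trans (map_inv θ _).symm), map_inv, pr12, inv_one]

theorem sq_one (h : Cov θ) {c : G} (hc : c ∈ zpowers (gU θ 12)) (h2 : c * c = 1) :
    c = 1 ∨ c = gU θ 12 * gU θ 12 := by
  have z4 := z_four θ
  rcases zpowers_four z4 hc with rfl | rfl | rfl | rfl
  exacts [Or.inl rfl, absurd h2 h.ne, Or.inr rfl, absurd (by
    rw [← mul_assoc, ← mul_assoc, mul_assoc (gU θ 12 * gU θ 12), z4] at h2; simpa using h2) h.ne]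

theorem satS (h : Cov θ) (x : G) {i : ℕ} (hk : gU θ 13 = wv (gU θ) (cK i)) :
    Sat (gS θ x) 14 iS (rS (cK i)) := by
  have z4 := z_four θ
  have a := rel_gU θ MU_inv
  simp only [List.forall_mem_cons, wv_cons, wv_nil, one_mul] at a
  obtain ⟨a8, a9, a10, a11, -⟩ := a
  have a13 : gU θ 13 * gU θ 13 = 1 := by rcases h.k with e | e <;> simp [e, z4]
  refine ⟨rfl, fun l hl => ?_, fun r hr => ?_⟩
  · interval_cases l
    exacts [inv_one.symm, rfl, (inv_inv _).symm, (inv_inv _).symm,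
      eq_inv_of_mul_eq_one_left (sq8 θ).2.2.2,
      eq_inv_of_mul_eq_one_left z4, inv_one.symm, inv_one.symm, eq_inv_of_mul_eq_one_left a8,
      eq_inv_of_mul_eq_one_left a9, eq_inv_of_mul_eq_one_left a10, eq_inv_of_mul_eq_one_left a11,
      rfl, eq_inv_of_mul_eq_one_left a13]
  · rcases List.mem_append.1 hr with hr | hr
    · rw [wv_gS θ x ((by decide +kernel : ∀ r ∈ rS0, ∀ l ∈ r, 8 ≤ l ∧ l ≤ 13) r hr)]
      exact rel_gU θ MU_rS _ (List.mem_map_of_mem hr)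
    · rw [List.mem_singleton.1 hr, wv_cons, wv_gS θ x (L := cK i) (by
        unfold cK; cases Nat.blt i 6 <;> simp), ← hk]
      exact a13

end Cov

theorem ordS' {i : ℕ} {g : ℕ → G} (hg : Sat g 14 iS (rS (cK i)))
    (he : ∀ p ∈ [([4], [8,10,8,10,12,13]), ([5], [12,12]), ([6], []), ([7], []), ([1], [])],
      wv g p.1 = wv g p.2) (h14 : ∀ l, 14 ≤ l → g l = 1) :
    (Finite (sub g [[8],[9],[10],[11],[12]]) ∧ Nat.card (sub g [[8],[9],[10],[11],[12]]) ≤ 256) ∧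
      ∀ l, g l ∈ sub g [[8],[9],[10],[11],[12]] := by
  simp only [List.forall_mem_cons, wv_one, wv_nil] at he
  obtain ⟨e4, e5, e6, e7, e1, -⟩ := he
  have i3 : g 3 = (g 12)⁻¹ := hg.inv 12 (by omega)
  refine ⟨?_, fun l => ?_⟩
  · have h : Finite (closure {y | ∃ l ∈ [3,8,9,10,11,12,13], g l = y}) ∧
        Nat.card (closure {y | ∃ l ∈ [3,8,9,10,11,12,13], g l = y}) ≤ 256 := by
      unfold cK at hg
      cases h : Nat.blt i 6 <;> rw [h] at hg
      exacts [ordS1 _ _ hg, ordS0 _ _ hg]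
    have hle : sub g [[8],[9],[10],[11],[12]] ≤ closure {y | ∃ l ∈ [3,8,9,10,11,12,13], g l = y} :=
      sub_le (by
        simp only [List.forall_mem_cons, wv_one]
        exact ⟨letter_mem _ (by simp), letter_mem _ (by simp), letter_mem _ (by simp),
          letter_mem _ (by simp), letter_mem _ (by simp), by simp⟩)
    have := h.1
    exact ⟨Finite.of_injective _ (inclusion_injective hle), (card_le_of_le hle).trans h.2⟩
  have m : ∀ l ∈ [8,9,10,11,12], g l ∈ sub g [[8],[9],[10],[11],[12]] := fun l hl =>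
    mem_sub g (List.mem_map_of_mem (f := fun l => [l]) hl)
  have m13 : g 13 ∈ sub g [[8],[9],[10],[11],[12]] := by
    rw [eq_inv_of_mul_eq_one_right (hg.rel (13 :: cK i) (by simp [rS]))]
    refine inv_mem (wv_mem fun k hk => m k ?_)
    unfold cK at hk
    cases h : Nat.blt i 6 <;> rw [h] at hk <;> simp at hk
    simp [hk]
  by_cases hl : 14 ≤ l
  · rw [h14 l hl]; exact one_mem _
  have : l < 14 := by omega
  interval_cases l
  exacts [hg.zero ▸ one_mem _, e1 ▸ one_mem _, by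
      rw [show g 2 = (g 1)⁻¹ from hg.inv 1 (by omega), e1, inv_one]; exact one_mem _,
    i3 ▸ inv_mem (m _ (by simp)), e4 ▸ wv_mem fun k hk => by
      simp only [List.mem_cons, List.not_mem_nil, or_false] at hk
      rcases hk with rfl | rfl | rfl | rfl | rfl | rfl <;> first | exact m13 | exact m _ (by simp),
    e5 ▸ wv_mem fun k hk => m k (by simp at hk; simp [hk]), e6 ▸ one_mem _, e7 ▸ one_mem _,
    m _ (by simp), m _ (by simp), m _ (by simp), m _ (by simp), m _ (by simp), m13]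

theorem noX_W : ∀ i ∈ [0, 6], (noX (MS i)).W 0 = [[8],[9],[10],[11],[12]] ∧
    (noX (MS i)).W 1 = [[8],[9],[10],[11],[12]] ∧ (noX (MS i)).n ≠ 0 ∧
    (noX (MS i)).cs.length = 14 ∧ certOrder ((noX (MS i)).K 0) = 256 := by decide +kernel

theorem Cov.holds (h : Cov θ) : ∃ S : ℕ → Subgroup G, S 1 = sub (gS θ 1) [[8],[9],[10],[11],[12]] ∧
    (Fm.and fB fX).sem S (gS θ 1) := by
  obtain ⟨i, hi, hk, c⟩ : ∃ i ∈ [0, 6], gU θ 13 = wv (gU θ) (cK i) ∧ chk0 i = true := by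
    rcases h.k with e | e
    exacts [⟨0, by simp, e, chk0_0⟩, ⟨6, by simp, e.trans (congrArg (· * _) (one_mul _).symm), chk0_6⟩]
  obtain ⟨w0, w1, hn, len, c0⟩ := noX_W i hi
  simp only [chk0, Bool.and_eq_true] at c
  obtain ⟨⟨⟨⟨c1, c2⟩, c3⟩, c4⟩, c5⟩ := c
  generalize noX (MS i) = M at *
  have : NeZero M.n := ⟨hn⟩
  obtain ⟨o1, o2⟩ := ordS' (sat_prod (PM.sat c1 c3) (h.satS 1 hk))
    (eqs_prod (eqs_of c1 c4) (by
      simp only [List.forall_mem_cons]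
      refine ⟨?_, by simp only [wv_cons, wv_nil, one_mul]; rfl, one_mul _, one_mul _, one_mul _,
        by simp⟩
      rw [wv_gS θ 1 (L := [8,10,8,10,12,13]) (by decide), wv_gU, ← U_basic.2.2.2.2.2.2.2.2.2.2.1]
      exact one_mul _))
    fun l hl => Prod.ext (List.getD_eq_default _ _ (by rwa [List.length_map, len]))
      (List.getD_eq_default _ _ hl)
  rw [← w0] at o1 o2
  obtain ⟨φ, f1, f2⟩ := exists_hom o1 (c0.symm.trans (PM.card_sub c1 c2 0).symm).le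
  have hm : ∀ l, M.m l ∈ sub M.m (M.W 0) := fun l =>
    (sub_map (MonoidHom.fst _ G) (fun l => (M.m l, gS θ 1 l)) _).le ⟨_, o2 l, rfl⟩
  have h5 : wv (gS θ 1) [5] ≠ 1 := by rw [wv_one]; exact h.ne
  have h6 : ∀ l, φ ⟨_, hm l⟩ = gS θ 1 l := fun l => by
    simpa using f2 [l] (by simpa using o2 l) (by simpa using hm l)
  have e := emb_of_center (k := 8) c1 c2 ⟨hm, φ, f1, h6⟩ c0 (fun y hy y2 hc => by
    have := ((PM.dec_iff c1 c2 _).1 c5).1 y hy
    simpa [Fm.sem, upd_apply, y2, hc] using this) h5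
  exact ⟨_, congrArg _ w1, (PM.holds c1 c2 e c5).2⟩

/-- the facts on the Sylow subgroup -/
structure Bs (θ : UU →* G) (z a v : G) : Prop where
  sa : gU θ 8 * a = a * z * gU θ 8
  az : a ≠ z
  a1 : a ≠ 1
  d1 : gU θ 11 * a = a * gU θ 11
  d2 : gU θ 10 * gU θ 9 * a = a * (gU θ 10 * gU θ 9)
  d3 : gU θ 9 * gU θ 8 * a = a * (gU θ 9 * gU θ 8)
  k0 : gU θ 13 = 1 → v * v = a ∧ v * gU θ 11 * v = gU θ 11 ∧
    gU θ 10 * gU θ 9 * v = v * (gU θ 10 * gU θ 9) ∧
    gU θ 8 * v * gU θ 8 * v = v * (gU θ 8 * v * gU θ 8) ∧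
    ∀ u ∈ U0, θ u * v = v * θ u → θ u ^ 4 = 1 ∧ ∀ w ∈ U0, θ w * v = v * θ w → θ w * θ u = θ u * θ w

theorem gS_eq (θ : UU →* G) (x : G) : gS θ x 1 = x ∧ gS θ x 3 = (gU θ 12)⁻¹ ∧ gS θ x 4 = gU θ 28 ∧
    gS θ x 5 = gU θ 12 * gU θ 12 ∧ gS θ x 8 = gU θ 8 ∧ gS θ x 9 = gU θ 9 ∧ gS θ x 10 = gU θ 10 ∧
    gS θ x 11 = gU θ 11 ∧ gS θ x 12 = gU θ 12 ∧ gS θ x 13 = gU θ 13 :=
  ⟨rfl, rfl, rfl, rfl, rfl, rfl, rfl, rfl, rfl, rfl⟩

theorem Cov.bs (h : Cov θ) : Bs θ (gU θ 12 * gU θ 12) (gU θ 28) (vv θ) := by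
  obtain ⟨S, hS, f, -⟩ := h.holds
  simp only [fB, Fm.sem, wv_cons, wv_nil, one_mul, upd_apply, Nat.reduceEqDiff, ↓reduceIte, hS,
    gS_eq θ 1] at f
  obtain ⟨b1, b2, b3, b4, b5, b6, b7⟩ := f
  refine ⟨b1, b2, b3, b4, by simpa only [mul_assoc] using b5, by simpa only [mul_assoc] using b6,
    fun e => ?_⟩
  obtain ⟨c1, c2, c3, c4, c5⟩ := b7 e
  refine ⟨by simpa only [vv, mul_assoc] using c1, by simpa only [vv, mul_assoc] using c2,
    by simpa only [vv, mul_assoc] using c3, by simpa only [vv, mul_assoc] using c4,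
    fun u hu e => ?_⟩
  obtain ⟨d1, d2⟩ := c5 _ (mem_S0 hu θ 1) (by simpa only [vv, mul_assoc] using e)
  exact ⟨by simpa only [pow_succ, pow_zero, one_mul] using d1, fun w hw e' =>
    d2 _ (mem_S0 hw θ 1) (by simpa only [vv, mul_assoc] using e')⟩

theorem Cov.conj_a (h : Cov θ) {u : UU} (h1 : pr u ≠ 1) (h2 : pr u * pr u = 1) :
    ∃ w, ∃ c ∈ zpowers (gU θ 12), θ w * θ u * (θ w)⁻¹ = c * gU θ 28 := by
  rcases inv_conjL (pr u).2 (congrArg Subtype.val h2) with a | ⟨v, hv, a⟩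
  · exact absurd (Subtype.ext a) h1
  obtain ⟨w, hw⟩ := pr_surj ⟨v, hv⟩
  have b := h.zp (u := w * u * w⁻¹ * (uu 28)⁻¹) (by
    simp only [map_mul, map_inv, hw]
    exact Subtype.ext (by simp [a, pr_uu (l := 28) (by omega)]))
  simp only [map_mul, map_inv] at b
  exact ⟨w, _, b, (inv_mul_cancel_right _ _).symm⟩

theorem Cov.inner (h : Cov θ) {y : G} (hy : y ∈ θ.range) (y2 : y * y = 1)
    (y1 : y ≠ 1) (yt : y ≠ gU θ 12 * gU θ 12) : ∃ m ∈ θ.range, m * y * m⁻¹ = gU θ 28 := by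
  obtain ⟨u, rfl⟩ := hy
  obtain ⟨w, c, b, e⟩ := h.conj_a (fun a => (h.sq_one (h.zp a) y2).elim y1 yt)
    ((map_mul pr u u).symm.trans (h.ker _ ((map_mul θ u u).trans y2)))
  have e2 : θ w * θ u * (θ w)⁻¹ * (θ w * θ u * (θ w)⁻¹) = 1 := by rw [conj_mul, y2]; simp
  rw [e, mul_assoc, ← mul_assoc (gU θ 28), ← zp_comm b (gU_mem θ 28), mul_assoc, (sq8 θ).2.2.2,
    mul_one] at e2
  rcases h.sq_one b e2 with rfl | rfl
  · exact ⟨_, ⟨w, rfl⟩, by rw [e, one_mul]⟩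
  · refine ⟨(gU θ 8)⁻¹ * θ w, mul_mem (inv_mem (gU_mem ..)) ⟨w, rfl⟩, ?_⟩
    calc _ = (gU θ 8)⁻¹ * (θ w * θ u * (θ w)⁻¹ * gU θ 8) := by group
      _ = _ := by rw [e, zp_comm b (gU_mem θ 28), ← h.bs.sa, inv_mul_cancel_left]

theorem Cov.cent_a (h : Cov θ) {y : G} (hy : y ∈ θ.range) (e : y * gU θ 28 = gU θ 28 * y) :
    ∃ u ∈ U0, θ u = y := by
  obtain ⟨u, rfl⟩ := hy
  have a := h.pr_eq (u := u * uu 28) (w := uu 28 * u) (by rw [map_mul, map_mul]; exact e)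
  rw [map_mul, map_mul] at a
  have b := cent_L (pr u).2 (by simpa [pr_uu (l := 28) (by omega)] using congrArg Subtype.val a)
  have c : (sub uu [[8],[9],[10],[11]]).map (LL.subtype.comp pr) = sub ML.m [[8],[9],[10],[11]] := by
    rw [sub_map]
    simp [sub, pr_uu (l := 8) (by omega), pr_uu (l := 9) (by omega), pr_uu (l := 10) (by omega),
      pr_uu (l := 11) (by omega)]
  obtain ⟨w, hw, e⟩ := c.ge b
  have d := h.zp (u := w⁻¹ * u) (by
    rw [map_mul, map_inv, inv_mul_eq_one]; exact Subtype.ext e)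
  have m : ∀ l ∈ [8, 9, 10, 11, 12], uu l ∈ U0 := fun l hl =>
    mem_sub _ (List.mem_map_of_mem (f := fun l => [l]) hl)
  change θ u ∈ U0.map θ
  rw [← mul_inv_cancel_left w u, map_mul]
  refine mul_mem (mem_map_of_mem θ (sub_le (H := U0) ?_ hw))
    (zpowers_le.2 (mem_map_of_mem θ (m 12 (by simp))) d)
  simp only [List.forall_mem_cons, wv_one]
  exact ⟨m 8 (by simp), m 9 (by simp), m 10 (by simp), m 11 (by simp), by simp⟩

theorem ML_z : ML.dec (.all 3 40 (.imp (.eq [40,1] [1,40]) (.eq [40] []))) = true := by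
  decide +kernel

/-- An element of the cover that centralizes it lies in the cyclic centre. -/
theorem Cov.mem_zp (h : Cov θ) {y : G} (hy : y ∈ θ.range)
    (hc : y ∈ centralizer (θ.range : Set G)) : y ∈ zpowers (gU θ 12) := by
  obtain ⟨u, rfl⟩ := hy
  refine h.zp ?_
  have hn : pr u ∈ center LL := mem_center_iff.2 fun g => by
    obtain ⟨w, rfl⟩ := pr_surj g
    rw [← map_mul, ← map_mul]
    exact h.pr_eq (by rw [map_mul, map_mul]; exact hc _ ⟨w, rfl⟩)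
  have a := fun l (hl : l < 35) => congrArg Subtype.val (mem_center_iff.1 hn ⟨_, memL hl⟩)
  have := (PM.dec_iff ML_ok ML_subs _).1 ML_z _ (cent_L (pr u).2 (a 28 (by omega)).symm)
  simp only [Fm.sem, wv_cons, wv_nil, one_mul, upd_apply, Nat.reduceEqDiff, ↓reduceIte] at this
  exact Subtype.ext (this (a 1 (by omega)))

end Cfsg.Lib.Spor.SON
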