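import Cfsg.Agent.StdON.Fx

/-! Standard subgroups `4.L₃(4)`: elements that normalize the covering group (helper84). -/

set_option autoImplicit false
set_option maxRecDepth 100000

namespace Cfsg.Lib.Spor.SON

open Subgroup Bulk PK WF ONT

variable {G : Type*} [Group G] {θ : UU →* G} {x n : G} {j : ℕ}

theorem zp_cent {c : G} (hc : c ∈ zpowers (gU θ 12)) : c ∈ centralizer (θ.range : Set G) :=
  fun _ hy => (zp_comm hc hy).symm

theorem zp_four {c : G} (hc : c ∈ zpowers (gU θ 12)) : c ^ 4 = 1 := by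
  obtain ⟨k, rfl⟩ := hc
  have : gU θ 12 ^ 4 = 1 := by simpa [pow_succ, mul_assoc] using z_four θ
  change (gU θ 12 ^ k) ^ 4 = 1
  rw [← zpow_natCast, ← zpow_mul, mul_comm, zpow_mul, zpow_natCast, this, one_zpow]

theorem Cov.exists_sigma (hc : Cov θ) : ∃ σ : θ.range →* LL,
    (∀ u, σ (θ.rangeRestrict u) = pr u) ∧ σ.ker = center θ.range := by
  have e1 : θ.rangeRestrict.ker ≤ pr.ker := fun u hu => hc.ker u (congrArg Subtype.val hu)
  let σ : θ.range →* LL := θ.rangeRestrict.liftOfSurjective θ.rangeRestrict_surjective ⟨pr, e1⟩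
  have s1 : ∀ u, σ (θ.rangeRestrict u) = pr u := fun u =>
    θ.rangeRestrict.liftOfRightInverse_comp_apply _ _ ⟨pr, e1⟩ u
  refine ⟨σ, s1, Subgroup.ext fun l => ?_⟩
  obtain ⟨u, rfl⟩ := θ.rangeRestrict_surjective l
  rw [MonoidHom.mem_ker, s1]
  refine ⟨fun e => mem_center_iff.2 fun g => Subtype.ext (zp_cent (hc.zp e) g g.2), fun e => ?_⟩
  rcases zpowers_four (z_four θ) (hc.mem_zp (th_mem θ u) fun g hg =>
    congrArg Subtype.val (mem_center_iff.1 e ⟨g, hg⟩)) with a | a | a | a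
  exacts [hc.pr_one (Or.inl a), hc.pr_one (Or.inr (Or.inl a)), hc.pr_one (Or.inr (Or.inr (Or.inl a))),
    hc.pr_one (Or.inr (Or.inr (Or.inr (a.trans (eq_inv_of_mul_eq_one_left
      (by rw [mul_assoc, z_four])))))) ]

theorem Cov.exists_act (hc : Cov θ) (hn : n ∈ normalizer (θ.range : Set G)) :
    ∃ u x j, Act θ x j ∧ n = θ u * x := by
  obtain ⟨σ, t1, s2⟩ := hc.exists_sigma
  let τ := θ.rangeRestrict
  have hχ : ∀ c, al hn c ∈ center θ.range ↔ c ∈ center θ.range := map_mem_center_iff _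
  have h4 : ∀ c ∈ σ.ker, c ^ 4 = 1 := fun c h => Subtype.ext (zp_four (hc.mem_zp c.2 fun g hg =>
    congrArg Subtype.val (mem_center_iff.1 (s2.le h) ⟨g, hg⟩)))
  have eL := eqs_of ML_ok ML_e
  obtain ⟨v, hv, j, hj, v1, v7⟩ := autL (y := fun l => (σ (al hn (gU τ l))).1) (Subtype.prop _)
    (Subtype.prop _) (fun a => ne_of ML_ok ML_one ((pr_wv (by decide)).symm.trans
      (congrArg Subtype.val ((t1 _).symm.trans (s2.ge (by
        simpa [gU] using (hχ _).1 (s2.le (Subtype.ext a))))))))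
    fun r hr => by
      have : pr (wv uu r) = 1 := by
        simp only [List.mem_cons, List.not_mem_nil, or_false] at hr
        rcases hr with rfl | rfl | rfl | rfl <;>
          exact Subtype.ext ((pr_wv (by decide)).trans (eL (_, []) (by simp)))
      exact (map_wv _ (LL.subtype.comp (σ.comp ((al hn).toMonoidHom.comp τ))) r).symm.trans
        (congrArg Subtype.val (s2.ge ((hχ _).2 (s2.le ((t1 _).trans this)))))
  obtain ⟨m, hm⟩ := pr_surj ⟨v, hv⟩
  obtain ⟨-, -, -, -, -, -, -, a8, -, -, -, -, -, a14, a15⟩ := U_basic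
  have key : ∀ l k, k < 35 → uu l ^ 3 = 1 → uu k ^ 3 = 1 →
      v * (σ (al hn (gU τ l))).1 = ML.m k * v →
      θ m * n * gU θ l * (θ m * n)⁻¹ = gU θ k := fun l k hk a b h => by
    have := congrArg Subtype.val (eq_of_cube s2.le h4 (x := τ m * al hn (gU τ l) * (τ m)⁻¹)
      (y := gU τ k) (by rw [conj_pow, gU, ← map_pow, ← map_pow, a, map_one, map_one]; group)
      (by rw [gU, ← map_pow, b, map_one]) (by
        rw [map_mul, map_mul, map_inv, t1, hm, mul_inv_eq_iff_eq_mul, gU, gU, t1]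
        exact Subtype.ext (h.trans (congrArg (· * v) (pr_uu hk).symm))))
    change θ m * (n * gU θ l * n⁻¹) * (θ m)⁻¹ = gU θ k at this
    rw [← this]; group
  have x1 := key 1 1 (by omega) a8 a8 v1
  have x7 := key 7 _ (by omega) a14 (a15 j hj) v7
  refine ⟨m⁻¹, θ m * n, j, ⟨?_, mul_mem (le_normalizer (th_mem θ m)) hn, x1, x7⟩, by simp⟩
  generalize θ m * n = x at *
  have c := z_comm' θ 13
  have z4 := z_four θ
  have s4 : gU θ 13 * gU θ 13 = 1 := by rcases hc.k with e | e <;> simp [e, z4]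
  have bad : ∀ B, (j, 13, B) ∈ TB → B ∈ [[12], [12, 12, 12], [12, 13, 13, 13], [12, 12, 12, 13]] →
      False := fun B hB h => by
    have a := act x1 x7 hB
    have b : wv (gU θ) B * wv (gU θ) B = 1 := by rw [← a, conj_mul, s4]; simp
    refine hc.ne ?_
    generalize gU θ = g at *
    have d : g 13 * g 12 * (g 13 * g 12) = g 12 * g 12 := by
      rw [mul_assoc, ← mul_assoc (g 12), c, mul_assoc, ← mul_assoc, s4, one_mul]
    have d3 : g 12 * g 12 * g 12 * (g 12 * g 12 * g 12) = g 12 * g 12 := by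
      calc _ = g 12 * g 12 * (g 12 * g 12 * (g 12 * g 12)) := by simp only [mul_assoc]
        _ = _ := by rw [z4, mul_one]
    simp only [List.mem_cons, List.not_mem_nil, or_false] at h
    rcases h with rfl | rfl | rfl | rfl <;> simp only [wv_cons, wv_nil, one_mul, s4] at b
    · exact b
    · rwa [d3] at b
    · rwa [d] at b
    · have c' : Commute (g 13) (g 12 * g 12 * g 12) :=
        (((Commute.symm c).mul_right (Commute.symm c)).mul_right (Commute.symm c))
      calc _ = g 13 * g 13 * (g 12 * g 12 * g 12 * (g 12 * g 12 * g 12)) := by rw [d3, s4, one_mul]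
        _ = _ := by rw [c'.mul_mul_mul_comm, ← b]; simp only [mul_assoc]
  rcases (by decide +kernel : ∀ j < 12, (j = 0 ∨ j = 4 ∨ j = 7 ∨ j = 9) ∨ ∃ B ∈ [[12], [12, 12, 12],
    [12, 13, 13, 13], [12, 12, 12, 13]], (j, 13, B) ∈ TB) j hj with a | ⟨B, a, b⟩
  exacts [a, (bad B b a).elim]

/-- the product of the cover with its centralizer -/
def LK (θ : UU →* G) : Subgroup G where
  carrier := {n | ∃ l ∈ θ.range, ∃ k ∈ centralizer (θ.range : Set G), n = l * k}
  one_mem' := ⟨1, one_mem _, 1, one_mem _, (one_mul 1).symm⟩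
  mul_mem' := by
    rintro _ _ ⟨l, hl, k, hk, rfl⟩ ⟨l', hl', k', hk', rfl⟩
    exact ⟨_, mul_mem hl hl', _, mul_mem hk hk', by
      rw [mul_assoc, ← mul_assoc k, ← hk _ hl']; group⟩
  inv_mem' := by
    rintro _ ⟨l, hl, k, hk, rfl⟩
    exact ⟨_, inv_mem hl, _, inv_mem hk, by rw [hk _ hl, mul_inv_rev]⟩

theorem L_le (θ : UU →* G) : θ.range ≤ LK θ := fun l hl => ⟨l, hl, 1, one_mem _, (mul_one l).symm⟩

theorem K_le (θ : UU →* G) : centralizer (θ.range : Set G) ≤ LK θ :=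
  fun l hl => ⟨1, one_mem _, l, hl, (one_mul l).symm⟩

theorem LK_y (hn : n ∈ LK θ) : Commute n (gU θ 12) := by
  obtain ⟨l, hl, k, hk, rfl⟩ := hn
  exact Commute.mul_left (zp_comm (mem_zpowers _) hl).symm (hk _ (gU_mem θ 12)).symm

theorem Act.mul_LK {x' l l' : G} (h : Act θ x j) (h' : Act θ x' j) (hl : l ∈ θ.range)
    (hl' : l' ∈ θ.range) : l * x * (l' * x') ∈ LK θ := by
  have := mul_mem (mul_mem (mul_mem (L_le θ hl) (L_le θ ((mem_normalizer_iff.1 h.nm _).1 hl')))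
    (K_le θ h.sq)) (K_le θ (h.uniq h'))
  convert this using 1; group

theorem Cov.sq_mem (hc : Cov θ) (hn : n ∈ normalizer (θ.range : Set G)) : n * n ∈ LK θ := by
  obtain ⟨u, x, j, h, rfl⟩ := hc.exists_act hn
  exact h.mul_LK h (th_mem ..) (th_mem ..)

theorem mul_y {l : G} (hl : l ∈ θ.range) : (l * x * gU θ 12 = gU θ 12 * (l * x) ↔
    x * gU θ 12 = gU θ 12 * x) ∧
    (gU θ 12 * (l * x) * gU θ 12 = l * x ↔ gU θ 12 * x * gU θ 12 = x) := by
  rw [← mul_assoc, zp_comm (mem_zpowers _) hl]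
  simp only [mul_assoc, mul_right_inj, and_self]

theorem Cov.y_act (hc : Cov θ) (hn : n ∈ normalizer (θ.range : Set G)) :
    n * gU θ 12 = gU θ 12 * n ∨ gU θ 12 * n * gU θ 12 = n := by
  obtain ⟨u, x, j, h, rfl⟩ := hc.exists_act hn
  exact (h.y_act hc).imp (fun a => (mul_y (th_mem θ u)).1.2 a.1)
    fun a => (mul_y (th_mem θ u)).2.2 a.1

variable [Finite G]

theorem Cov.exists_act_a (hc : Cov θ) (hn : n ∈ normalizer (θ.range : Set G))
    (ha : n * gU θ 28 = gU θ 28 * n) : ∃ u ∈ U0, ∃ x j, Act θ x j ∧ n = θ u * x ∧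
      θ u * gU θ 28 = gU θ 28 * θ u := by
  obtain ⟨u, x, j, h, rfl⟩ := hc.exists_act hn
  rw [mul_assoc, h.xa hc, ← mul_assoc, ← mul_assoc, mul_left_inj] at ha
  obtain ⟨w, hw, e⟩ := hc.cent_a (th_mem θ u) ha
  exact ⟨w, hw, x, j, h, by rw [e], by rwa [e]⟩

/-- `n` lies in one of four cosets of the centralizer -/
def CC (θ : UU →* G) (n : G) : Prop := n ∈ centralizer (θ.range : Set G) ∨
  n * gU θ 28 ∈ centralizer (θ.range : Set G) ∨ (gU θ 13 = 1 ∧
    (n * vv θ ∈ centralizer (θ.range : Set G) ∨ n * (vv θ)⁻¹ ∈ centralizer (θ.range : Set G)))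

omit [Finite G] in
theorem cent_of_E (h : ∀ v, E θ x 1 v v) : x ∈ centralizer (θ.range : Set G) := by
  rintro _ ⟨v, rfl⟩
  simpa [E] using (h v).symm

omit [Finite G] in
theorem cc_of_fc (hc : Cov θ) {u : UU} (h : FC (E θ x) u) : CC θ (θ u * x) := by
  have hx := cent_of_E h.1
  have key : ∀ w, pr (u * w) = 1 → θ u * x * θ w ∈ centralizer (θ.range : Set G) := fun w e => by
    rw [mul_assoc, ← hx _ (th_mem θ w), ← mul_assoc, ← map_mul]
    exact mul_mem (zp_cent (hc.zp e)) hx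
  exact h.2.imp (fun a => mul_mem (zp_cent (hc.zp a)) hx) (Or.imp (key _) (And.imp
    (fun a => by simpa [E, gU] using a) (Or.imp (fun a => map_uv θ ▸ key _ a)
      fun a => by simpa only [map_inv, map_uv θ] using key _ a)))

theorem Cov.v3 (hc : Cov θ) (hn : n ∈ normalizer (θ.range : Set G))
    (ha : n * gU θ 28 = gU θ 28 * n) (h : ∀ d ∈ θ.range, d * gU θ 28 = gU θ 28 * d →
      n * d = d * n ∨ n * d = gU θ 28 * d * n) : CC θ n := by
  obtain ⟨u, hu, x, j, e, rfl, ua⟩ := hc.exists_act_a hn ha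
  have b := hc.bs
  refine cc_of_fc hc ((e.fx hc u hu (by simpa [E, gU] using ua)).1 ?_)
  simp only [List.forall_mem_cons, E, map_mul]
  exact ⟨by simpa only [mul_assoc, gU] using h _ (gU_mem θ 12) (z_comm' θ 28),
    by simpa only [mul_assoc, gU] using h _ (gU_mem θ 11) b.d1,
    by simpa only [mul_assoc, gU] using h _ (mul_mem (gU_mem θ 10) (gU_mem θ 9)) b.d2,
    by simpa only [mul_assoc, gU] using h _ (mul_mem (gU_mem θ 9) (gU_mem θ 8)) b.d3, by simp⟩

theorem Cov.kk (hc : Cov θ) (k : gU θ 13 = 1) (hn : n ∈ normalizer (θ.range : Set G))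
    (ha : n * gU θ 28 = gU θ 28 * n) (hy : n * gU θ 12 = gU θ 12 * n) (hv : n * vv θ = vv θ * n)
    {W : Subgroup G} (w1 : gU θ 28 ∈ W) (w2 : gU θ 12 * gU θ 12 ∉ W)
    (h : ∀ d ∈ θ.range, d * gU θ 28 = gU θ 28 * d → n * d * n⁻¹ * d⁻¹ ∈ W) : CC θ n := by
  obtain ⟨u, hu, x, j, e, rfl, ua⟩ := hc.exists_act_a hn ha
  have b := hc.bs
  refine cc_of_fc hc (((e.fx hc u hu (by simpa [E, gU] using ua)).2 (by simpa [E, gU] using k)
    (by simpa only [E, map_mul, mul_assoc, gU] using hy)).1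
    (by simpa only [E, map_mul, mul_assoc, map_uv θ] using hv) fun d hd c e' => ?_)
  have hW : θ c ∈ W := by
    have := h _ (th_mem θ d) (by
      simp only [List.mem_cons, List.not_mem_nil, or_false] at hd
      rcases hd with rfl | rfl
      exacts [b.d1, by rw [map_mul]; exact b.d2])
    simp only [E, map_mul] at e'
    rw [e'] at this
    convert this using 1; group
  have w3 : θ (uu 28) * (θ (uu 12) * θ (uu 12)) ∉ W := fun a => w2 ((mul_mem_cancel_left w1).1 a)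
  simp only [E, map_mul, map_one, mul_one, mul_left_inj]
  exact ⟨fun a => w2 (a ▸ hW), fun a => w3 (a ▸ hW), fun a => w2 (a ▸ mul_mem hW hW),
    fun a => w3 (a ▸ mul_mem hW hW)⟩

theorem Cov.v4 (hc : Cov θ) (k : gU θ 13 = 1) (hn : n ∈ normalizer (θ.range : Set G))
    (ha : n * gU θ 28 = gU θ 28 * n) (hy : n * gU θ 12 = gU θ 12 * n)
    (hb : Commute n (gU θ 10 * gU θ 9 * (gU θ 10 * gU θ 9))) : n ∈ LK θ := by
  obtain ⟨u, hu, x, j, e, rfl, ua⟩ := hc.exists_act_a hn ha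
  exact ⟨_, th_mem θ u, x, cent_of_E (((e.fx hc u hu (by simpa [E, gU] using ua)).2
    (by simpa [E, gU] using k) (by simpa only [E, map_mul, mul_assoc, gU] using hy)).2
    (by simpa only [E, map_mul, mul_assoc, gU] using hb.eq)), rfl⟩

theorem Cov.p2 (hc : Cov θ) (hn : n ∈ normalizer (θ.range : Set G)) (h2 : n * n = 1)
    (hy : gU θ 12 * n * gU θ 12 = n) : ∃ w ∈ θ.range, ∃ s ∈ θ.range, s * s = 1 ∧
      s ≠ 1 ∧ s ≠ gU θ 12 * gU θ 12 ∧ w * n * w⁻¹ = s * n := by
  obtain ⟨u, x, j, h, rfl⟩ := hc.exists_act hn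
  exact h.fp hc ((mul_y (th_mem θ u)).2.1 hy) (th_mem θ u) h2

theorem exists_cov (M : Subgroup G) (hZc : IsCyclic (center M)) (hZ4 : Nat.card (center M) = 4)
    (hperf : commutator M = ⊤) (e : M ⧸ center M ≃* LL) :
    ∃ θ : UU →* G, Cov θ ∧ θ.range = M := by
  obtain ⟨τ, hτ⟩ := exists_prime_orderOf_dvd_card' (G := center M) 2 (by rw [hZ4]; decide)
  have h1 : τ ≠ 1 := fun e => by rw [e, orderOf_one] at hτ; omega
  obtain ⟨⟨ζ, c1⟩, c2, c3, c4⟩ := cyc_four hZc hZ4 h1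
    (by rw [← pow_two, ← hτ, pow_orderOf_eq_one])
  have k0 : (e.toMonoidHom.comp (QuotientGroup.mk' (center M))).ker = center M := by ext; simp
  have h4 : ∀ u ∈ center M, u ^ 4 = 1 := fun u hu =>
    congrArg Subtype.val (hZ4 ▸ pow_card_eq_one' (x := (⟨u, hu⟩ : center M)))
  obtain ⟨σ, θ, s1, s2, s3, s4⟩ := exists_norm (e.surjective.comp (QuotientGroup.mk'_surjective _))
    k0.le (fun u hu => h4 u (k0.le hu)) (τ := τ.1) (fun c hc => (c2 ⟨c, k0.le hc⟩).imp
      (congrArg Subtype.val) (congrArg Subtype.val))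
      (congrArg Subtype.val (show τ * τ = 1 by rw [← pow_two, ← hτ, pow_orderOf_eq_one]))
  rw [k0] at s2
  have t1 : ∀ u, σ (θ u) = pr u := DFunLike.congr_fun s3
  have s5 : Function.Surjective θ := Solv.surjective_of_stem σ ⟨s1, s2.le, hperf ▸ le_top⟩ θ
    (s3 ▸ pr_surj)
  have hk : ∀ l, [l] ∈ [[12], [13]] → gU θ l ∈ center M := fun l hl =>
    s2.le ((t1 _).trans (ker_pr.ge (mem_sub _ hl)))
  have z2 : gU θ 12 * gU θ 12 = τ := by
    refine congrArg Subtype.val ((c2 ⟨_, hk 12 (by simp)⟩).resolve_left fun a => h1 ?_)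
    obtain ⟨u, hu⟩ := s5 ζ
    let H : Subgroup UU :=
      { carrier := {c | θ c ∈ center M ∧ θ c * θ c = 1}
        one_mem' := by simp
        mul_mem' := fun {a b} ha hb => ⟨map_mul θ a b ▸ mul_mem ha.1 hb.1, by
          rw [map_mul, mul_assoc, ← mul_assoc (θ b), mem_center_iff.1 ha.1, mul_assoc, hb.2,
            mul_one, ha.2]⟩
        inv_mem' := fun {a} ha => ⟨map_inv θ a ▸ inv_mem ha.1, by
          rw [map_inv, ← mul_inv_rev, ha.2, inv_one]⟩ }
    have := (sub_le_two (H := H) ⟨hk 12 (by simp), congrArg Subtype.val a⟩ ⟨hk 13 (by simp), s4⟩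
      (ker_pr.le ((t1 u).symm.trans (s2.ge (hu ▸ ζ.2))))).2
    rw [hu] at this
    exact Subtype.ext ((congrArg Subtype.val c1).symm.trans this)
  refine ⟨M.subtype.comp θ, ⟨fun u hu => (t1 u).symm.trans (by
    rw [show θ u = 1 from Subtype.ext hu, map_one]), fun a => h1 (Subtype.ext (z2.symm.trans
      (Subtype.ext a))), (c3 ⟨_, hk 13 (by simp)⟩ (Subtype.ext s4)).imp
      (congrArg fun y : center M => y.1.1) fun a => (congrArg (fun y : center M => y.1.1) a).trans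
        (congrArg Subtype.val z2).symm⟩, ?_⟩
  rw [MonoidHom.range_comp, MonoidHom.range_eq_top.2 s5, ← MonoidHom.range_eq_map, range_subtype]

end Cfsg.Lib.Spor.SON
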