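import Cfsg.Agent.StdON.Act

/-! Standard subgroups `4.L₃(4)`: reading off the models (helper84). -/

set_option autoImplicit false
set_option maxRecDepth 100000

namespace Cfsg.Lib.Spor.SON

open Subgroup Bulk PK WF ONT

variable {G : Type*} [Group G] {θ : UU →* G} {x n : G} {j : ℕ}

/-- the element `v` upstairs -/
noncomputable def uv : UU := uu 11 * uu 9 * uu 8

theorem map_uv (θ : UU →* G) : θ uv = vv θ := by simp only [uv, vv, gU, map_mul]

theorem th_mem (θ : UU →* G) (u : UU) : θ u ∈ θ.range := ⟨u, rfl⟩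

/-- the conclusion of the checks -/
def FC (E : UU → UU → UU → Prop) (u : UU) : Prop := (∀ v, E 1 v v) ∧ (pr u = 1 ∨
  pr (u * uu 28) = 1 ∨ (E (uu 13) 1 1 ∧ (pr (u * uv) = 1 ∨ pr (u * uv⁻¹) = 1)))

/-- the facts on automorphisms that centralize `a` -/
def FX (E : UU → UU → UU → Prop) : Prop := ∀ u ∈ U0, E (u * uu 28) 1 (uu 28 * u) →
  ((∀ d ∈ [uu 12, uu 11, uu 10 * uu 9, uu 9 * uu 8], E u d (d * u) ∨ E u d (uu 28 * d * u)) →
    FC E u) ∧ (E (uu 13) 1 1 → E u (uu 12) (uu 12 * u) → (E u uv (uv * u) →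
      (∀ d ∈ [uu 11, uu 10 * uu 9], ∀ c, E u d (c * d * u) → ¬ E c 1 (uu 12 * uu 12) ∧
        ¬ E c 1 (uu 28 * (uu 12 * uu 12)) ∧ ¬ E (c * c) 1 (uu 12 * uu 12) ∧
        ¬ E (c * c) 1 (uu 28 * (uu 12 * uu 12))) → FC E u) ∧
      (E u (uu 10 * uu 9 * (uu 10 * uu 9)) (uu 10 * uu 9 * (uu 10 * uu 9) * u) → ∀ v, E 1 v v))

/-- the square of the outer element is central -/
def SQ (E : UU → UU → UU → Prop) (u : UU) : Prop := E u u 1 ∨ E u u (uu 12 * uu 12)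

theorem fx_of_sem (hc : Cov θ) {S : ℕ → Subgroup G}
    (hS : S 1 = sub (gS θ x) [[8],[9],[10],[11],[12]]) (h : fX.sem S (gS θ x)) : FX (E θ x) := by
  simp only [fX, fC, cA, tA, inZ, Fm.sem, List.cons_append, List.nil_append, wv_cons, wv_nil,
    one_mul, upd_apply, Nat.reduceEqDiff, ↓reduceIte, hS, gS_eq θ x] at h
  intro u hu e
  obtain ⟨h1, h2⟩ := h _ (mem_S0 hu θ x) (by simpa [E, gU] using e)
  have x1 : x = 1 → ∀ v, E θ x 1 v v := fun e v => by simp [E, e]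
  have fc : ∀ {p : Prop}, (p → x = 1 ∧ ((θ u = 1 ∨ θ u = gU θ 12 ∨ θ u = gU θ 12 * gU θ 12 ∨
      θ u = (gU θ 12)⁻¹) ∨ (θ u * gU θ 28 = 1 ∨ θ u * gU θ 28 = gU θ 12 ∨
      θ u * gU θ 28 = gU θ 12 * gU θ 12 ∨ θ u * gU θ 28 = (gU θ 12)⁻¹) ∨ gU θ 13 = 1 ∧
      ((θ u * gU θ 11 * gU θ 9 * gU θ 8 = 1 ∨ θ u * gU θ 11 * gU θ 9 * gU θ 8 = gU θ 12 ∨
      θ u * gU θ 11 * gU θ 9 * gU θ 8 = gU θ 12 * gU θ 12 ∨
      θ u * gU θ 11 * gU θ 9 * gU θ 8 = (gU θ 12)⁻¹) ∨ θ u * gU θ 8 * gU θ 9 * gU θ 11 = 1 ∨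
      θ u * gU θ 8 * gU θ 9 * gU θ 11 = gU θ 12 ∨
      θ u * gU θ 8 * gU θ 9 * gU θ 11 = gU θ 12 * gU θ 12 ∨
      θ u * gU θ 8 * gU θ 9 * gU θ 11 = (gU θ 12)⁻¹))) → p → FC (E θ x) u := fun a b => by
    obtain ⟨a1, a2⟩ := a b
    refine ⟨x1 a1, a2.imp hc.pr_one (Or.imp (fun c => hc.pr_one (by rwa [map_mul]))
      (And.imp (fun c => by simpa [E, gU] using c) (Or.imp (fun c => hc.pr_one ?_)
        fun c => hc.pr_one ?_)))⟩
    · simpa only [map_mul, map_uv θ, vv, mul_assoc] using c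
    · simpa only [map_mul, map_inv, map_uv θ, vv_inv θ, mul_assoc] using c
  refine ⟨fun a => ?_, fun a b => ?_⟩
  · simp only [List.forall_mem_cons, E, map_mul] at a
    exact fc (fun _ => h1 (by simpa only [mul_assoc, gU] using a.1)
      (by simpa only [mul_assoc, gU] using a.2.1) (by simpa only [mul_assoc, gU] using a.2.2.1)
      (by simpa only [mul_assoc, gU] using a.2.2.2.1)) trivial
  obtain ⟨h3, h4⟩ := h2 (by simpa [E, gU] using a) (by simpa only [E, map_mul, mul_assoc, gU] using b)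
  refine ⟨fun c d => ?_, fun c => x1 (h4 (by simpa only [E, map_mul, mul_assoc, gU] using c))⟩
  simp only [List.forall_mem_cons, E, map_mul, map_one, mul_one, mul_left_inj] at d
  refine fc (fun _ => h3 (by simpa only [E, map_mul, map_uv θ, vv, mul_assoc] using c)
    (fun s hs e => ?_) fun s hs e => ?_) trivial
  · obtain ⟨c, -, rfl⟩ := (map_U0 θ x).ge hs
    simpa only [mul_assoc, gU] using d.1 c (by simpa only [mul_assoc, gU] using e)
  · obtain ⟨c, -, rfl⟩ := (map_U0 θ x).ge hs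
    simpa only [mul_assoc, gU] using d.2.1 c (by simpa only [mul_assoc, gU] using e)

theorem rel_cov {i : ℕ} (h : Rel θ x i) : Cov θ := ⟨h.ker, h.ne, h.z2⟩

theorem rel_holds {i : ℕ} (h : Rel θ x i) (hi : i < 12) {p : Fm} (hp : (MS i).dec p = true) :
    ∃ S : ℕ → Subgroup G, S 1 = sub (gS θ x) [[8],[9],[10],[11],[12]] ∧ p.sem S (gS θ x) := by
  have c := sok hi
  have : NeZero (MS i).n := ⟨c.ne⟩
  exact ⟨_, congrArg _ c.w1, PM.holds c.ok c.subs (h.embS hi c) hp⟩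

theorem chkX {i : ℕ} (hi : i ∈ [0, 2, 4, 6, 8, 10]) :
    i < 12 ∧ (MS i).dec (.and fX fP) = true := by
  simp only [List.mem_cons, List.not_mem_nil, or_false] at hi
  rcases hi with rfl | rfl | rfl | rfl | rfl | rfl
  exacts [⟨by omega, chkX0⟩, ⟨by omega, chkX2⟩, ⟨by omega, chkX4⟩, ⟨by omega, chkX6⟩,
    ⟨by omega, chkX8⟩, ⟨by omega, chkX10⟩]

variable [Finite G]

theorem Act.fx (h : Act θ x j) (hc : Cov θ) : FX (E θ x) := by
  by_cases hx : x ∈ centralizer (θ.range : Set G)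
  · obtain ⟨S, hS, -, f⟩ := hc.holds
    have : E θ x = E θ 1 := by
      funext u v r
      rw [E, E, mul_assoc, ← hx _ ⟨v, rfl⟩, ← mul_assoc, mul_left_inj, mul_one, mul_one]
    exact this ▸ fx_of_sem hc hS f
  · obtain ⟨i, hi, -, d, -⟩ := h.data hc hx
    obtain ⟨S, hS, f, -⟩ := rel_holds d.toRel (chkX hi).1 (chkX hi).2
    exact E_eq h.nm ▸ fx_of_sem (rel_cov d.toRel) hS f

theorem Act.xa (h : Act θ x j) (hc : Cov θ) : x * gU θ 28 = gU θ 28 * x := by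
  by_cases hx : x ∈ centralizer (θ.range : Set G)
  · exact (hx _ (gU_mem θ 28)).symm
  · obtain ⟨i, hi, -, d, -⟩ := h.data hc hx
    have : E (th h.nm) (xh h.nm) 1 (uu 28) (uu 28) := by
      simpa [E, gU] using (d.sf (chkX hi).1).xa.symm
    rw [E_eq] at this
    simpa [E, gU] using this

theorem exists_conj_four {H K : Subgroup G} {k : ℕ} (hle : H ≤ K)
    (h1 : 2 ^ k ∣ Nat.card H) (h2 : ¬ 2 ^ (k + 1) ∣ Nat.card K) {x : G} (hx : x ∈ K)
    (hxp : x ^ 4 = 1) : ∃ g ∈ K, g * x * g⁻¹ ∈ H := by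
  rw [← Nat.card_congr (subgroupOfEquivOfLe hle).toEquiv] at h1
  obtain ⟨Q, hQ⟩ := Sylow.exists_subgroup_card_pow_prime 2 h1
  have hz : IsPGroup 2 (zpowers (⟨x, hx⟩ : K)) := by
    rintro ⟨_, j, rfl⟩
    refine ⟨2, Subtype.ext (Subtype.ext ?_)⟩
    simp only [SubmonoidClass.coe_pow, coe_zpow, OneMemClass.coe_one]
    rw [← zpow_natCast, ← zpow_mul, mul_comm, zpow_mul, zpow_natCast]
    exact (congrArg (· ^ j) hxp).trans (one_zpow j)
  obtain ⟨P, hP⟩ := hz.exists_le_sylow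
  have hk : (Nat.card K).factorization 2 = k := by
    have h0 : Nat.card K ≠ 0 := Nat.card_pos.ne'
    have a := (Nat.prime_two.pow_dvd_iff_le_factorization h0).1
      (h1.trans (card_subgroup_dvd_card _))
    have b := (Nat.prime_two.pow_dvd_iff_le_factorization h0).not.1 h2
    omega
  obtain ⟨c, hc⟩ := exists_conj_sylow P (Q := Q.map (H.subgroupOf K).subtype)
    (by rw [card_map_of_injective (subtype_injective _), hQ, hk])
  obtain ⟨_, ⟨y, -, rfl⟩, e⟩ := hc ▸ hP (mem_zpowers _)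
  refine ⟨c⁻¹, K.inv_mem c.2, ?_⟩
  have e' : (c : G) * y.1.1 * (c : G)⁻¹ = x := congrArg Subtype.val e
  rw [← e']
  simpa [mul_assoc] using mem_subgroupOf.1 y.2

theorem data_syl {i : ℕ} (h : Data θ x i) (hi : i < 12) (x2 : x * x = 1)
    (hT : centralizer {gU θ 12 * gU θ 12} = ⊤) {l : UU} (e : SQ (E θ x) l) :
    ∃ c, ∃ u ∈ U0, E θ x u c (c * l) ∧ SQ (E θ x) u := by
  have f := h.sf hi
  have m : ∀ g, g ∈ centralizer {gU θ 12 * gU θ 12} := fun g => hT ▸ mem_top g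
  have s : ∀ {l}, SQ (E θ x) l ↔ θ l * x * (θ l * x) = 1 ∨ θ l * x * (θ l * x) = gU θ 12 * gU θ 12 :=
    fun {l} => by
      rw [SQ, E, E, map_one, map_mul, ← mul_assoc, ← mul_left_inj x, ← mul_left_inj x (b := _ * θ l),
        mul_assoc _ x x, mul_assoc _ x x, x2, mul_one, mul_one]; rfl
  obtain ⟨g, -, hg⟩ := exists_conj_four (k := 9) h.sS_le (by rw [f.c0]; decide)
    (by rw [h.card]; decide) (m (θ l * x)) (by
      rw [show 4 = 2 * 2 from rfl, pow_mul, pow_two, pow_two]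
      rcases s.1 e with a | a <;> rw [a]
      exacts [one_mul _, z_four θ])
  obtain ⟨c, hc⟩ : ∃ c, θ c * (θ l * x) * (θ c)⁻¹ ∈ sS θ x := by
    by_cases a : g ∈ θ.range
    · obtain ⟨c, rfl⟩ := a
      exact ⟨c, hg⟩
    · obtain ⟨c, hc⟩ := (h.mul_mem_iff (m x) (m g)).2 (iff_of_false h.out a)
      refine ⟨c, ?_⟩
      have := mul_mem (mul_mem (x_mem_sS θ x) hg) (inv_mem (x_mem_sS θ x))
      rw [hc]; convert this using 1; group
  have hw : θ c * (θ l * x) * (θ c)⁻¹ * x ∈ sS0 θ x := by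
    have : ((sS0 θ x).subgroupOf (sS θ x)).index = 2 := by
      have := ((sS0 θ x).subgroupOf (sS θ x)).index_mul_card
      rw [Nat.card_congr (subgroupOfEquivOfLe (sS0_le' θ x)).toEquiv, f.c0, f.c1] at this
      omega
    exact (mul_mem_iff_of_index_two this (a := ⟨_, hc⟩) (b := ⟨_, x_mem_sS θ x⟩)).2
      (iff_of_false (fun a => h.out (by
        have : θ c * (θ l * x) * (θ c)⁻¹ ∈ θ.range := sS0_le θ x a
        rwa [mul_mem_cancel_right (inv_mem (th_mem θ c)), mul_mem_cancel_left (th_mem θ c),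
          mul_mem_cancel_left (th_mem θ l)] at this)) fun a => h.out (sS0_le θ x a))
  obtain ⟨u, hu, eu⟩ := (map_U0 θ x).ge hw
  have e1 : θ u * x = θ c * (θ l * x) * (θ c)⁻¹ := by rw [eu, mul_assoc _ x, x2, mul_one]
  refine ⟨c, u, hu, by rw [E, e1, map_mul]; group, s.2 ?_⟩
  rw [e1, conj_mul]
  refine (s.1 e).imp (fun a => by rw [a]; group) fun a => ?_
  rw [a, mem_centralizer_singleton_iff.1 (m _), mul_inv_cancel_right]

theorem Act.syl (h : Act θ x j) (hc : Cov θ) (hx : x ∉ centralizer (θ.range : Set G)) {l : UU}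
    (e : SQ (E θ x) l) : ∃ c, ∃ u ∈ U0, E θ x u c (c * l) ∧ SQ (E θ x) u := by
  obtain ⟨i, hi, -, d, x2, hT⟩ := h.data hc hx
  rw [← E_eq h.nm] at e ⊢
  have : Finite (XX h.nm) := Finite.of_equiv _ SemidirectProduct.equivProd.symm
  exact data_syl d (chkX hi).1 x2 hT e

omit [Finite G] in
theorem not_mem_of_inv (hc : Cov θ) (hy : gU θ 12 * x * gU θ 12 = x) :
    x ∉ centralizer (θ.range : Set G) := fun hx => hc.ne (by
  rwa [hx _ (gU_mem θ 12), mul_assoc, mul_eq_left] at hy)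

omit [Finite G] in
theorem Act.sq_case (h : Act θ x j) (hc : Cov θ) (hy : gU θ 12 * x * gU θ 12 = x) {u : UU}
    (e : θ u * x * (θ u * x) = 1) : SQ (E θ x) u := by
  have e1 : θ u * x * θ u = (x * x)⁻¹ * x := by
    rw [← mul_assoc, mul_eq_one_iff_eq_inv] at e; rw [e]; group
  have m : (x * x)⁻¹ ∈ zpowers (gU θ 12) := hc.mem_zp (by
    have := mul_mem (show θ u ∈ θ.range from ⟨u, rfl⟩) ((mem_normalizer_iff.1 h.nm _).1 ⟨u, rfl⟩)
    rwa [← mul_assoc, ← mul_assoc, e1, mul_inv_cancel_right] at this) (inv_mem h.sq)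
  have c : (x * x)⁻¹ * x = x * (x * x)⁻¹ := by group
  have z4 := z_four θ
  rw [SQ, E, E, e1, map_one, map_mul]
  rcases zpowers_four z4 m with a | a | a | a
  · exact Or.inl (by rw [a])
  · rw [a] at c
    exact absurd (by rwa [c, mul_assoc, mul_eq_left] at hy) hc.ne
  · exact Or.inr (by rw [a]; rfl)
  · rw [a] at c
    refine absurd ?_ hc.ne
    have d : Commute (gU θ 12 * gU θ 12 * gU θ 12) x := c
    have := (d.mul_left d).mul_left d
    rw [show gU θ 12 * gU θ 12 * gU θ 12 * (gU θ 12 * gU θ 12 * gU θ 12) *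
      (gU θ 12 * gU θ 12 * gU θ 12) = gU θ 12 * gU θ 12 * (gU θ 12 * gU θ 12) *
      (gU θ 12 * gU θ 12 * (gU θ 12 * gU θ 12)) * gU θ 12 by group, z4, one_mul, one_mul] at this
    rwa [this.eq, mul_assoc, mul_eq_left] at hy

theorem Act.f7 (h : Act θ x 7) (hc : Cov θ) (k : gU θ 13 = 1) {u : UU} (hu : u ∈ U0) :
    (θ u * vv θ = vv θ * θ u → θ u * x * θ u = x) ∧
      (SQ (E θ x) u → θ u * x * vv θ ≠ vv θ * (θ u * x)) := by
  obtain ⟨i, hi, e, d, -⟩ := h.data hc (not_mem_of_inv hc ((h.y_act hc).resolve_left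
    fun a => by simpa using a.2 k).1)
  obtain rfl := (e k).1 rfl
  obtain ⟨S, hS, f⟩ := rel_holds d.toRel (by omega) chk7
  simp only [SON.f7, sQ, Fm.sem, wv_cons, wv_nil, one_mul, upd_apply, Nat.reduceEqDiff,
    ↓reduceIte, hS, gS_eq (th h.nm) (xh h.nm)] at f
  have key : (E θ x (u * uv) 1 (uv * u) → E θ x u u 1) ∧ (SQ (E θ x) u → ¬ E θ x u uv (uv * u)) := by
    rw [← E_eq h.nm]
    obtain ⟨f1, f2⟩ := f _ (mem_S0 hu _ _)
    refine ⟨fun a => ?_, fun a b => f2 ?_ ?_⟩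
    · rw [E, map_one, mul_one, mul_left_inj] at a
      simpa [E] using f1 (by simpa [map_uv (th h.nm), vv, mul_assoc] using a)
    · simpa [SQ, E, gU] using a
    · simpa [E, map_uv (th h.nm), vv, mul_assoc] using b
  exact ⟨fun a => by simpa [E] using key.1 (by simpa [E, map_uv θ] using a),
    fun a b => key.2 a (by simpa [E, map_uv θ, mul_assoc] using b)⟩

theorem Act.f9 (h : Act θ x 9) (hc : Cov θ) (k : gU θ 13 = 1) {l : G} (hl : l ∈ θ.range)
    (e : l * x * (l * x) = 1) : ∃ c ∈ θ.range, c * (l * x) * c⁻¹ = x := by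
  obtain ⟨l, rfl⟩ := hl
  have hy := ((h.y_act hc).resolve_left fun a => by simpa using a.2 k).1
  obtain ⟨c, u, hu, e1, e2⟩ := h.syl hc (not_mem_of_inv hc hy) (h.sq_case hc hy e)
  obtain ⟨i, hi, e, d, -⟩ := h.data hc (not_mem_of_inv hc hy)
  obtain rfl := (e k).2 rfl
  obtain ⟨S, hS, f⟩ := rel_holds d.toRel (by omega) chk9
  simp only [SON.f9, sQ, Fm.sem, wv_cons, wv_nil, one_mul, upd_apply, Nat.reduceEqDiff,
    ↓reduceIte, hS, gS_eq (th h.nm) (xh h.nm)] at f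
  obtain ⟨s, hs, e3⟩ := f _ (mem_S0 hu _ _) (by
    rw [← E_eq h.nm] at e2; simpa [SQ, E, gU] using e2)
  obtain ⟨p, -, rfl⟩ := (map_U0 _ _).ge hs
  have e4 : E θ x 1 p (p * u) := by rw [← E_eq h.nm]; simpa [E] using e3
  simp only [E, map_mul, map_one, one_mul] at e1 e4
  refine ⟨θ p * θ c, mul_mem (th_mem ..) (th_mem ..), ?_⟩
  calc _ = θ p * (θ c * θ l * x) * (θ c)⁻¹ * (θ p)⁻¹ := by group
    _ = θ p * θ u * x * (θ p)⁻¹ := by rw [← e1]; group
    _ = x := by rw [← e4, mul_inv_cancel_right]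

theorem Act.fp (h : Act θ x j) (hc : Cov θ) (hy : gU θ 12 * x * gU θ 12 = x) {l : G}
    (hl : l ∈ θ.range) (e : l * x * (l * x) = 1) : ∃ w ∈ θ.range, ∃ s ∈ θ.range, s * s = 1 ∧
      s ≠ 1 ∧ s ≠ gU θ 12 * gU θ 12 ∧ w * (l * x) * w⁻¹ = s * (l * x) := by
  obtain ⟨l, rfl⟩ := hl
  obtain ⟨c, u, hu, e1, e2⟩ := h.syl hc (not_mem_of_inv hc hy) (h.sq_case hc hy e)
  obtain ⟨i, hi, -, d, -⟩ := h.data hc (not_mem_of_inv hc hy)
  obtain ⟨S, hS, -, f⟩ := rel_holds d.toRel (chkX hi).1 (chkX hi).2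
  simp only [fP, sQ, Fm.sem, wv_cons, wv_nil, one_mul, upd_apply, Nat.reduceEqDiff,
    ↓reduceIte, hS, gS_eq (th h.nm) (xh h.nm)] at f
  obtain ⟨s, hs, s2, s1, sz, e3⟩ := f.resolve_left (fun a => hc.ne (by
    have : E θ x 1 (uu 12) (uu 12) := by rw [← E_eq h.nm]; simpa [E, gU] using a
    simp only [E, map_one, one_mul] at this
    rwa [← show x * gU θ 12 = gU θ 12 * x from this, mul_assoc, mul_eq_left] at hy)) _
    (mem_S0 hu _ _) (by rw [← E_eq h.nm] at e2; simpa [SQ, E, gU] using e2)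
  obtain ⟨p, -, rfl⟩ := (map_U0 _ _).ge hs
  obtain ⟨w, e4⟩ : ∃ w, E θ x (p * u) w (w * u) := by
    rw [← E_eq h.nm]
    rcases e3 with a | a
    exacts [⟨uu 11 * uu 9 * uu 8, by simpa [E, gU, mul_assoc] using a⟩,
      ⟨uu 9 * uu 11 * uu 8, by simpa [E, gU, mul_assoc] using a⟩]
  simp only [E, map_mul] at e1 e4
  have p2 : θ p * θ p = 1 := by
    rw [← map_mul, ← map_one θ, ← th_eq h.nm, map_mul, map_one]; exact s2
  have e5 : θ l * x = (θ c)⁻¹ * (θ u * x) * θ c := by rw [mul_assoc _ _ (θ c), e1]; group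
  refine ⟨(θ c)⁻¹ * θ w * θ c, mul_mem (mul_mem (inv_mem (th_mem ..)) (th_mem ..)) (th_mem ..),
    (θ c)⁻¹ * θ p * θ c, mul_mem (mul_mem (inv_mem (th_mem ..)) (th_mem ..)) (th_mem ..), ?_,
    fun a => s1 ?_, fun a => sz ?_, ?_⟩
  · calc _ = (θ c)⁻¹ * (θ p * θ p) * θ c := by group
      _ = 1 := by rw [p2]; group
  · rw [← map_one (th h.nm), th_eq, map_one]
    simpa [mul_assoc, inv_mul_eq_one] using a
  · rw [gU, ← map_mul, th_eq, map_mul]
    rw [mul_assoc, inv_mul_eq_iff_eq_mul,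
      mem_centralizer_singleton_iff.1 (range_le θ (th_mem θ c)), mul_left_inj] at a
    exact a
  · calc _ = (θ c)⁻¹ * (θ w * θ u * x) * (θ w)⁻¹ * θ c := by rw [e5]; group
      _ = _ := by rw [← e4, e5]; group

end Cfsg.Lib.Spor.SON
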