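import Cfsg.Agent.StdON.Dec

/-! Standard subgroups `4.L₃(4)`: pairs of commuting conjugates (helper84). -/

set_option autoImplicit false
set_option maxRecDepth 100000

namespace Cfsg.Lib.Spor.SON

open Subgroup Bulk PK WF ONT

variable {G : Type*} [Group G] {θ θ' : UU →* G} {x n g k : G} {j : ℕ}

/-- the central involution -/
noncomputable abbrev zz (θ : UU →* G) : G := gU θ 12 * gU θ 12

/-- the centralizer of the cover -/
abbrev KK (θ : UU →* G) : Subgroup G := centralizer (θ.range : Set G)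

/-- the cover is a standard subgroup -/
structure St (θ : UU →* G) : Prop extends Cov θ where
  norm : ∀ {n}, Commute n (zz θ) → n ∈ normalizer (θ.range : Set G)
  tight : ∀ {k g}, k * k = 1 → k ∈ KK θ → g * k * g⁻¹ ∈ KK θ → k = 1 ∨ Commute g (zz θ)

/-- the conjugate covering map -/
noncomputable def cj (g : G) (θ : UU →* G) : UU →* G := (MulAut.conj g).toMonoidHom.comp θ

theorem cj_gU (g : G) (θ : UU →* G) (l : ℕ) : gU (cj g θ) l = g * gU θ l * g⁻¹ := rfl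

theorem cj_z (g : G) (θ : UU →* G) : zz (cj g θ) = g * zz θ * g⁻¹ := conj_mul

theorem cj_cj (g h : G) (θ : UU →* G) : cj g (cj h θ) = cj (g * h) θ :=
  MonoidHom.ext fun u => by simp [cj, mul_assoc]

theorem cj_one (θ : UU →* G) : cj 1 θ = θ := MonoidHom.ext fun u => by simp [cj]

theorem mem_cj : x ∈ (cj g θ).range ↔ g⁻¹ * x * g ∈ θ.range :=
  ⟨by rintro ⟨u, rfl⟩; exact ⟨u, by simp [cj, mul_assoc]⟩,
    fun ⟨u, e⟩ => ⟨u, by simp [cj, e, mul_assoc]⟩⟩

theorem memK_cj : x ∈ KK (cj g θ) ↔ g⁻¹ * x * g ∈ KK θ := by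
  refine ⟨fun h l hl => ?_, fun h l hl => ?_⟩
  · have := h (g * l * g⁻¹) (mem_cj.2 (by simpa [mul_assoc] using hl))
    calc _ = g⁻¹ * (g * l * g⁻¹ * x) * g := by group
      _ = _ := by rw [this]; group
  · have := h _ (mem_cj.1 hl)
    calc _ = g * (g⁻¹ * l * g * (g⁻¹ * x * g)) * g⁻¹ := by group
      _ = _ := by rw [this]; group

theorem comm_cj {a b : G} : Commute a (g * b * g⁻¹) ↔ Commute (g⁻¹ * a * g) b :=
  ⟨fun e => by simpa [mul_assoc] using e.map (MulAut.conj g⁻¹),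
    fun e => by simpa [mul_assoc] using e.map (MulAut.conj g)⟩

theorem y_mem (θ : UU →* G) : gU θ 12 ∈ KK θ := zp_cent (mem_zpowers _)

theorem z_mem (θ : UU →* G) : zz θ ∈ KK θ := mul_mem (y_mem θ) (y_mem θ)

theorem comm_z {l : G} (hl : l ∈ θ.range) : Commute l (zz θ) := z_mem θ l hl

theorem comm_zK (hk : k ∈ KK θ) : Commute k (zz θ) :=
  (hk _ (mul_mem (gU_mem θ 12) (gU_mem θ 12))).symm

theorem y_inv (θ : UU →* G) : (gU θ 12)⁻¹ = gU θ 12 * zz θ :=
  inv_eq_of_mul_eq_one_right (by rw [← mul_assoc, z_four])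

theorem comm_of_inv {y p q : G} (a : y * p * y = p) (b : y * q * y = q) : Commute (p * q) y := by
  calc p * q * y = y * p * (y * q * y) := by nth_rewrite 1 [← a]; group
    _ = _ := by rw [b, mul_assoc]

theorem St.cj (h : St θ) (g : G) : St (cj g θ) := by
  refine ⟨⟨fun u e => h.ker u (by simpa [SON.cj] using e), fun e => h.ne (by
    rwa [← zz, cj_z, conj_eq_one_iff] at e), h.k.imp (fun e => by rw [cj_gU, e]; group)
      fun e => by rw [cj_gU, e, ← cj_z]⟩, fun {n} e => ?_, fun {k x} e h1 h2 => ?_⟩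
  · rw [cj_z, comm_cj] at e
    refine mem_normalizer_iff.2 fun l => ?_
    rw [mem_cj, mem_cj]
    refine (mem_normalizer_iff.1 (h.norm e) _).trans (Iff.of_eq ?_)
    congr 1; group
  · rw [memK_cj] at h1 h2
    rw [cj_z, comm_cj]
    refine (h.tight (g := g⁻¹ * x * g) (by
      calc _ = g⁻¹ * (k * k) * g := by group
        _ = 1 := by rw [e]; group) h1
      (by convert h2 using 1; group)).imp_left fun a => ?_
    calc k = g * (g⁻¹ * k * g) * g⁻¹ := by group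
      _ = 1 := by rw [a]; group

theorem St.conj_L (h : St θ) (hn : Commute n (zz θ)) {l : G} (hl : l ∈ θ.range) :
    n * l * n⁻¹ ∈ θ.range := (mem_normalizer_iff.1 (h.norm hn) l).1 hl

theorem St.conj_K (h : St θ) (hn : Commute n (zz θ)) (hk : k ∈ KK θ) : n * k * n⁻¹ ∈ KK θ :=
  fun l hl => by
    have := hk _ (h.conj_L hn.inv_left hl)
    calc l * (n * k * n⁻¹) = n * (n⁻¹ * l * n⁻¹⁻¹ * k) * n⁻¹ := by group
      _ = _ := by rw [this]; group

/-- two commuting conjugates -/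
structure Pair (θ θ' : UU →* G) : Prop where
  l : St θ
  r : St θ'
  comm : Commute (zz θ') (zz θ)
  odd : ∀ {k}, k * k = 1 → k ∈ KK θ → k ∈ KK θ' → k = 1

theorem St.pair (h : St θ) (h1 : Commute (g * zz θ * g⁻¹) (zz θ)) (h2 : g * zz θ * g⁻¹ ≠ zz θ) :
    Pair θ (SON.cj g θ) :=
  ⟨h, h.cj g, cj_z g θ ▸ h1, fun e k1 k2 => (h.tight (g := g⁻¹) e k1
    (by simpa using memK_cj.1 k2)).resolve_right fun a => h2 (by
      rw [(Commute.inv_left_iff.1 a).eq, mul_inv_cancel_right])⟩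

theorem St.pair2 (h : St θ) {f : G} (h1 : Commute (g * zz θ * g⁻¹) (f * zz θ * f⁻¹))
    (h2 : g * zz θ * g⁻¹ ≠ f * zz θ * f⁻¹) : Pair (SON.cj f θ) (SON.cj g θ) := by
  have e : g * f⁻¹ * zz (SON.cj f θ) * (g * f⁻¹)⁻¹ = g * zz θ * g⁻¹ := by rw [cj_z]; group
  have := (h.cj f).pair (g := g * f⁻¹) (by rwa [e, cj_z]) (by rwa [e, cj_z])
  rwa [cj_cj, inv_mul_cancel_right] at this

namespace Pair

theorem symm (h : Pair θ θ') : Pair θ' θ := ⟨h.r, h.l, h.comm.symm, fun a b c => h.odd a c b⟩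

theorem z_not (h : Pair θ θ') : zz θ' ∉ KK θ := fun e => h.r.ne (h.odd (z_four θ') e (z_mem θ'))

theorem z_ne (h : Pair θ θ') : zz θ' ≠ zz θ := fun e => h.z_not (e ▸ z_mem θ)

theorem odd4 (h : Pair θ θ') (e : k ^ 4 = 1) (k1 : k ∈ KK θ) (k2 : k ∈ KK θ') : k = 1 :=
  h.odd (h.odd (by rw [← e]; simp only [pow_succ, pow_zero, one_mul, mul_assoc]) (mul_mem k1 k1)
    (mul_mem k2 k2)) k1 k2

theorem p1 (h : Pair θ θ') (e : Commute (zz θ') (gU θ 12)) : Commute (zz θ) (gU θ' 12) :=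
  LK_y (h.r.sq_mem (h.r.norm e.symm))

theorem cj' (h : Pair θ θ') {m : G} (hm : m ∈ θ.range) : Pair θ (cj m θ') := by
  refine ⟨h.l, h.r.cj m, ?_, fun {k} e k1 k2 => h.odd e k1 ?_⟩
  · rw [cj_z]
    exact ((comm_z hm).mul_left h.comm).mul_left (comm_z hm).inv_left
  · have := memK_cj.1 k2
    rwa [mul_assoc, ← k1 m hm, inv_mul_cancel_left] at this

theorem core (h : Pair θ θ') (e : Commute (zz θ') (gU θ 12)) (hk : k ∈ KK θ)
    (ea : zz θ' = gU θ 28 * k) {d : G} (hd : d ∈ θ.range) (da : d * gU θ 28 = gU θ 28 * d) :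
    gU θ' 12 * d = d * gU θ' 12 ∨ (gU θ' 12 * d = zz θ' * d * gU θ' 12 ∧ zz θ' ∈ θ.range) := by
  have c : Commute d (zz θ') := ea ▸ Commute.mul_right da (hk d hd)
  refine (h.r.y_act (h.r.norm c)).imp Eq.symm fun a => ?_
  have b : gU θ' 12 * d = zz θ' * d * gU θ' 12 := by
    rw [← c.eq, eq_mul_inv_of_mul_eq a, y_inv]; simp only [mul_assoc]
  refine ⟨b, ?_⟩
  have := mul_mem (h.l.conj_L (h.p1 e).symm hd) (inv_mem hd)
  rwa [b, mul_inv_cancel_right, mul_inv_cancel_right] at this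

theorem of_cc (h : Pair θ θ') (a : gU θ' 12 * gU θ 28 = gU θ 28 * gU θ' 12)
    (c : CC θ (gU θ' 12)) :
    gU θ 13 = 1 ∧ (gU θ' 12 * vv θ ∈ KK θ ∨ gU θ' 12 * (vv θ)⁻¹ ∈ KK θ) := by
  rcases c with c | c | c
  · exact absurd (mul_mem c c) h.z_not
  · refine absurd ?_ h.z_not
    have := mul_mem c c
    rwa [(Commute.symm a).mul_mul_mul_comm, (sq8 θ).2.2.2, mul_one] at this
  · exact c

variable [Finite G]

theorem p3 (h : Pair θ θ') (e : Commute (zz θ') (gU θ 12)) : zz θ' ∈ θ.range := by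
  obtain ⟨_, ⟨u, rfl⟩, k, hk, ek⟩ : zz θ' ∈ LK θ := h.l.sq_mem (h.l.norm (h.p1 e).symm)
  have c : Commute (θ u) k := hk _ (th_mem θ u)
  obtain ⟨w, c, hc, ew⟩ := h.l.conj_a (u := u) (fun a => h.z_not
    (ek ▸ mul_mem (zp_cent (h.l.zp a)) hk)) (by
      have := z_four θ'
      rw [← zz, ek, c.symm.mul_mul_mul_comm, mul_eq_one_iff_eq_inv, ← map_mul] at this
      rw [← map_mul]
      rcases zpowers_four (z_four θ) (h.l.mem_zp (th_mem θ _)
        (this ▸ inv_mem (mul_mem hk hk))) with a | a | a | a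
      exacts [h.l.pr_one (Or.inl a), h.l.pr_one (Or.inr (Or.inl a)),
        h.l.pr_one (Or.inr (Or.inr (Or.inl a))), h.l.pr_one (Or.inr (Or.inr (Or.inr
          (a.trans (by rw [y_inv, mul_assoc])))))])
  have p := h.cj' (th_mem θ w)
  have e' : Commute (zz (cj (θ w) θ')) (gU θ 12) := by
    have : Commute (θ w) (gU θ 12) := y_mem θ _ (th_mem θ w)
    rw [cj_z]; exact (this.mul_left e).mul_left this.inv_left
  have ea : zz (cj (θ w) θ') = gU θ 28 * (c * k) := by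
    rw [cj_z, ek, ← mul_assoc (gU θ 28), ← zp_comm hc (gU_mem θ 28), ← ew, mul_assoc _ _ k,
      hk _ (inv_mem (th_mem θ w))]
    group
  by_contra hn
  have all : ∀ d ∈ θ.range, d * gU θ 28 = gU θ 28 * d →
      gU (cj (θ w) θ') 12 * d = d * gU (cj (θ w) θ') 12 := fun d hd da =>
    (p.core e' (mul_mem (zp_cent hc) hk) ea hd da).resolve_right fun a => hn (by
      have := a.2
      rwa [cj_z, mul_mem_cancel_right (inv_mem (th_mem θ w)),
        mul_mem_cancel_left (th_mem θ w)] at this)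
  obtain ⟨k0, a⟩ := p.of_cc (all _ (gU_mem θ 28) rfl) (h.l.v3 (h.l.norm (p.p1 e').symm)
    (all _ (gU_mem θ 28) rfl) fun d hd da => Or.inl (all d hd da))
  have b := h.l.bs
  obtain ⟨b1, b2, -⟩ := b.k0 k0
  have c1 : Commute (gU θ 11) (gU (cj (θ w) θ') 12) := (all _ (gU_mem θ 11) b.d1).symm
  have c2 : Commute (gU θ 11) (vv θ) := by
    rcases a with a | a
    · simpa using c1.inv_right.mul_right (a _ (gU_mem θ 11))
    · simpa using (c1.inv_right.mul_right (a _ (gU_mem θ 11))).inv_right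
  rw [← c2.eq, mul_assoc, mul_eq_left, b1] at b2
  exact b.a1 b2

theorem p2 (h : Pair θ θ') (e : ¬ Commute (zz θ') (gU θ 12)) : ∃ s ∈ θ.range, s * s = 1 ∧ s ≠ 1 ∧
    s ≠ zz θ ∧ Commute s (zz θ') ∧ IsConj (zz θ') (s * zz θ') ∧ Commute (s * zz θ') (gU θ' 12) := by
  have i1 := (h.l.y_act (h.l.norm h.comm)).resolve_left e
  have i2 := (h.r.y_act (h.r.norm h.comm.symm)).resolve_left fun a => e (h.symm.p1 a)
  obtain ⟨w, hw, s, hs, s2, s1, sz, ew⟩ := h.l.p2 (h.l.norm h.comm) (z_four θ') i1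
  have c : Commute s (zz θ') := by
    have : s * zz θ' * (s * zz θ') = 1 := by rw [← ew, conj_mul, z_four]; group
    rw [mul_eq_one_iff_eq_inv, mul_inv_rev, inv_eq_of_mul_eq_one_right s2,
      inv_eq_of_mul_eq_one_right (z_four θ')] at this
    exact this
  have q : IsConj (zz θ') (s * zz θ') := isConj_iff.2 ⟨w, ew⟩
  rcases h.r.y_act (h.r.norm (c.mul_left (Commute.refl _))) with a | a
  · exact ⟨s, hs, s2, s1, sz, c, q, a⟩
  have cs := comm_z hs
  refine ⟨s * zz θ, mul_mem hs (mul_mem (gU_mem ..) (gU_mem ..)), by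
    rw [cs.symm.mul_mul_mul_comm, s2, z_four, one_mul], fun b => sz ?_, fun b => s1 ?_,
    c.mul_left h.comm.symm, q.trans (isConj_iff.2 ⟨gU θ 12, ?_⟩), ?_⟩
  · rw [eq_inv_of_mul_eq_one_left b, inv_eq_of_mul_eq_one_right (z_four θ)]
  · exact mul_eq_right.1 b
  · calc _ = gU θ 12 * s * zz θ' * (gU θ 12)⁻¹ := by group
      _ = s * (gU θ 12 * zz θ' * gU θ 12) * (zz θ)⁻¹ := by rw [← y_mem θ s hs]; group
      _ = _ := by rw [i1, inv_eq_of_mul_eq_one_right (z_four θ), mul_assoc s, h.comm.eq,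
        mul_assoc s]
  · rw [cs.eq, mul_assoc]
    exact comm_of_inv i2 a

end Pair

end Cfsg.Lib.Spor.SON
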